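import Cfsg.Agent.H419.EP.Iface

/-!
# Transport along a linear equivalence `F^ι → F^κ` (helper473)

`Eqv ι κ F` : mutually inverse matrices; `E.gl : GL ι F ≃* GL κ F`; transport of `scalars`, `omegaGL`, `Model`, `IsResidualCore`,
`InOrthogonalResidualClass`.
-/

set_option autoImplicit false

namespace Cfsg.Agent.H473.TR

open Subgroup Cfsg.Agent.H419.EP Matrix
open scoped MatrixGroups Matrix

/-- mutually inverse matrices -/
structure Eqv (ι κ : Type) [Fintype ι] [DecidableEq ι] [Fintype κ] [DecidableEq κ] (F : Type*) [Field F] where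
  P : Matrix κ ι F
  P' : Matrix ι κ F
  PP' : P * P' = 1
  P'P : P' * P = 1

variable {ι κ : Type} [Fintype ι] [DecidableEq ι] [Fintype κ] [DecidableEq κ] {F : Type*} [Field F]

namespace Eqv

variable (E : Eqv ι κ F)

def symm : Eqv κ ι F := ⟨E.P', E.P, E.P'P, E.PP'⟩

/-- the linear equivalence -/
theorem mulVec_mulVec (v : κ → F) : E.P *ᵥ (E.P' *ᵥ v) = v := by
  rw [Matrix.mulVec_mulVec, E.PP', Matrix.one_mulVec]

theorem mulVec_mulVec' (v : ι → F) : E.P' *ᵥ (E.P *ᵥ v) = v := E.symm.mulVec_mulVec v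

theorem mul_mul (A B : Matrix ι ι F) : (E.P * A * E.P') * (E.P * B * E.P') = E.P * (A * B) * E.P' := by
  calc (E.P * A * E.P') * (E.P * B * E.P') = E.P * A * (E.P' * E.P) * B * E.P' := by
        simp only [Matrix.mul_assoc]
    _ = _ := by rw [E.P'P, Matrix.mul_one, Matrix.mul_assoc E.P A B]

theorem inv_cj (A : Matrix ι ι F) : E.P' * (E.P * A * E.P') * E.P = A := by
  calc E.P' * (E.P * A * E.P') * E.P = (E.P' * E.P) * A * (E.P' * E.P) := by
        simp only [Matrix.mul_assoc]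
    _ = A := by rw [E.P'P, Matrix.one_mul, Matrix.mul_one]

/-- the isomorphism of the linear groups -/
def gl : GL ι F ≃* GL κ F where
  toFun g := ⟨E.P * (g : Matrix ι ι F) * E.P', E.P * ((g⁻¹ : GL ι F) : Matrix ι ι F) * E.P', by
      rw [E.mul_mul, ← Units.val_mul, mul_inv_cancel, Units.val_one, Matrix.mul_one, E.PP'], by
      rw [E.mul_mul, ← Units.val_mul, inv_mul_cancel, Units.val_one, Matrix.mul_one, E.PP']⟩
  invFun g := ⟨E.P' * (g : Matrix κ κ F) * E.P, E.P' * ((g⁻¹ : GL κ F) : Matrix κ κ F) * E.P, by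
      refine (E.symm.mul_mul _ _).trans ?_
      rw [← Units.val_mul, mul_inv_cancel, Units.val_one, Matrix.mul_one]; exact E.P'P, by
      refine (E.symm.mul_mul _ _).trans ?_
      rw [← Units.val_mul, inv_mul_cancel, Units.val_one, Matrix.mul_one]; exact E.P'P⟩
  left_inv g := Units.ext (E.inv_cj _)
  right_inv g := Units.ext (E.symm.inv_cj _)
  map_mul' g h := Units.ext (by
    show E.P * ((g * h : GL ι F) : Matrix ι ι F) * E.P' = (E.P * (g : Matrix ι ι F) * E.P') * (E.P * (h : Matrix ι ι F) * E.P')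
    rw [E.mul_mul, Units.val_mul])

theorem coe_gl (g : GL ι F) : ((E.gl g : GL κ F) : Matrix κ κ F) = E.P * (g : Matrix ι ι F) * E.P' := rfl

theorem gl_symm : E.gl.symm = E.symm.gl := rfl

theorem gl_symm_gl (g : GL ι F) : E.symm.gl (E.gl g) = g := E.gl.symm_apply_apply g

theorem gl_gl_symm (g : GL κ F) : E.gl (E.symm.gl g) = g := E.gl.apply_symm_apply g

theorem gl_mulVec (g : GL ι F) (v : ι → F) :
    ((E.gl g : GL κ F) : Matrix κ κ F) *ᵥ (E.P *ᵥ v) = E.P *ᵥ ((g : Matrix ι ι F) *ᵥ v) := by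
  rw [coe_gl, ← Matrix.mulVec_mulVec, E.mulVec_mulVec', Matrix.mulVec_mulVec]

/-! ## scalars -/

theorem gl_scalar {g : GL ι F} (hg : g ∈ Cfsg.Geo.scalars ι F) : E.gl g ∈ Cfsg.Geo.scalars κ F := by
  obtain ⟨c, hc⟩ := (Cfsg.Geo.mem_scalars_iff g).1 hg
  rw [Cfsg.Geo.mem_scalars_iff]
  refine ⟨c, ?_⟩
  rw [coe_gl, hc, Matrix.mul_smul, Matrix.mul_one, Matrix.smul_mul, E.PP']

theorem gl_scalar_iff {g : GL ι F} : E.gl g ∈ Cfsg.Geo.scalars κ F ↔ g ∈ Cfsg.Geo.scalars ι F :=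
  ⟨fun h => by rw [← E.gl_symm_gl g]; exact E.symm.gl_scalar h, E.gl_scalar⟩

/-! ## subgroups -/

/-- image of a subgroup -/
def mp (H : Subgroup (GL ι F)) : Subgroup (GL κ F) := H.map E.gl.toMonoidHom

theorem gl_mem {H : Subgroup (GL ι F)} {g : GL ι F} : E.gl g ∈ E.mp H ↔ g ∈ H :=
  Subgroup.mem_map_iff_mem E.gl.injective

theorem mem_mp {H : Subgroup (GL ι F)} {g : GL κ F} : g ∈ E.mp H ↔ E.symm.gl g ∈ H := by
  rw [← E.gl_mem, E.gl_gl_symm]

theorem mp_symm (H : Subgroup (GL ι F)) : E.symm.mp (E.mp H) = H := by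
  ext g
  rw [E.symm.mem_mp]
  exact E.gl_mem

theorem mp_mp_symm (H : Subgroup (GL κ F)) : E.mp (E.symm.mp H) = H := E.symm.mp_symm H

/-! ## models -/

/-- transport of a model -/
def tr {Q : Type*} [Group Q] {S : Subgroup (GL ι F)} {S' : Subgroup (GL κ F)} (hS : E.mp S = S') (m : Model Q S) :
    Model Q S' where
  π := m.π.comp ((E.symm.gl.toMonoidHom.comp S'.subtype).codRestrict S fun s => by
    have h1 : (s : GL κ F) ∈ E.mp S := by
      rw [hS]
      exact s.2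
    exact E.mem_mp.1 h1)
  surj := by
    intro x
    obtain ⟨s, rfl⟩ := m.surj x
    have h1 : E.gl s ∈ S' := by
      rw [← hS]
      exact E.gl_mem.2 s.2
    refine ⟨⟨E.gl s, h1⟩, ?_⟩
    rw [MonoidHom.comp_apply]
    congr 1
    exact Subtype.ext (E.gl_symm_gl _)
  ker := by
    intro s
    rw [MonoidHom.comp_apply, m.ker]
    show E.symm.gl (s : GL κ F) ∈ _ ↔ _
    exact E.symm.gl_scalar_iff

theorem hat_tr {Q : Type*} [Group Q] {S : Subgroup (GL ι F)} {S' : Subgroup (GL κ F)} (hS : E.mp S = S') (m : Model Q S)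
    (A : Subgroup Q) : (E.tr hS m).hat A = E.mp (m.hat A) := by
  ext g
  rw [Model.mem_hat, E.mem_mp, Model.mem_hat]
  constructor
  · rintro ⟨hg, h1⟩
    have h2 : E.symm.gl g ∈ S := by
      rw [← hS] at hg
      exact E.mem_mp.1 hg
    exact ⟨h2, h1⟩
  · rintro ⟨hg, h1⟩
    have h2 : g ∈ S' := by
      rw [← hS]
      exact E.mem_mp.2 hg
    exact ⟨h2, h1⟩

/-! ## the residual core -/

theorem mem_matrixSet {R : Subgroup (GL ι F)} {s : Matrix ι ι F} (hs : s ∈ Cfsg.Geo.matrixSet R) :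
    E.P * s * E.P' ∈ Cfsg.Geo.matrixSet (E.mp R) := by
  obtain ⟨g, hg, rfl⟩ := hs
  exact ⟨E.gl g, E.gl_mem.2 hg, rfl⟩

theorem irred {R : Subgroup (GL ι F)} (h : Cfsg.Geo.ActsIrreducibly (Cfsg.Geo.matrixSet R)) :
    Cfsg.Geo.ActsIrreducibly (Cfsg.Geo.matrixSet (E.mp R)) := by
  intro W hW
  have h1 := h (W.comap (Matrix.toLin' E.P)) (by
    rintro s hs _ ⟨v, hv, rfl⟩
    have h2 := hW _ (E.mem_matrixSet hs) ⟨_, hv, rfl⟩
    rw [Submodule.mem_comap]
    rw [Matrix.toLin'_apply, Matrix.toLin'_apply] at h2 ⊢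
    rw [← Matrix.mulVec_mulVec, ← Matrix.mulVec_mulVec, E.mulVec_mulVec'] at h2
    exact h2)
  rcases h1 with h1 | h1
  · left
    rw [eq_bot_iff]
    intro w hw
    have h2 : E.P' *ᵥ w ∈ W.comap (Matrix.toLin' E.P) := by
      rw [Submodule.mem_comap, Matrix.toLin'_apply, E.mulVec_mulVec]
      exact hw
    rw [h1, Submodule.mem_bot] at h2
    rw [Submodule.mem_bot, ← E.mulVec_mulVec w, h2, Matrix.mulVec_zero]
  · right
    rw [eq_top_iff]
    intro w _
    have h2 : E.P' *ᵥ w ∈ W.comap (Matrix.toLin' E.P) := by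
      rw [h1]
      trivial
    rw [Submodule.mem_comap, Matrix.toLin'_apply, E.mulVec_mulVec] at h2
    exact h2

theorem absIrred {R : Subgroup (GL ι F)} (h : Cfsg.Geo.ActsAbsolutelyIrreducibly (Cfsg.Geo.matrixSet R)) :
    Cfsg.Geo.ActsAbsolutelyIrreducibly (Cfsg.Geo.matrixSet (E.mp R)) := by
  refine ⟨E.irred h.1, fun M hM => ?_⟩
  obtain ⟨c, hc⟩ := h.2 (E.P' * M * E.P) (by
    intro s hs
    have h1 : E.P' * (M * (E.P * s * E.P')) * E.P = E.P' * (E.P * s * E.P' * M) * E.P := by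
      rw [hM _ (E.mem_matrixSet hs)]
    have e1 : E.P' * (M * (E.P * s * E.P')) * E.P = E.P' * M * E.P * s * (E.P' * E.P) := by
      simp only [Matrix.mul_assoc]
    have e2 : E.P' * (E.P * s * E.P' * M) * E.P = (E.P' * E.P) * s * (E.P' * M * E.P) := by
      simp only [Matrix.mul_assoc]
    rw [e1, e2, E.P'P, Matrix.mul_one, Matrix.one_mul] at h1
    exact h1)
  refine ⟨c, ?_⟩
  rw [← E.symm.inv_cj M]
  show E.P * (E.P' * M * E.P) * E.P' = _
  rw [hc, Matrix.mul_smul, Matrix.mul_one, Matrix.smul_mul, E.PP']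

include E in
theorem card_eq : Fintype.card ι = Fintype.card κ := by
  have h1 : Function.Bijective (Matrix.toLin' E.P) := by
    refine ⟨fun v w h => ?_, fun w => ⟨E.P' *ᵥ w, ?_⟩⟩
    · rw [Matrix.toLin'_apply, Matrix.toLin'_apply] at h
      rw [← E.mulVec_mulVec' v, h, E.mulVec_mulVec']
    · rw [Matrix.toLin'_apply, E.mulVec_mulVec]
  have h2 := (LinearEquiv.ofBijective _ h1).finrank_eq
  rwa [Module.finrank_fintype_fun_eq_card, Module.finrank_fintype_fun_eq_card] at h2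

theorem realisable {F₀ : Subfield F} {R : Subgroup (GL ι F)}
    (h : Cfsg.Geo.RealisableOver F₀ (Cfsg.Geo.matrixSet (E.mp R))) : Cfsg.Geo.RealisableOver F₀ (Cfsg.Geo.matrixSet R) := by
  obtain ⟨B, hB⟩ := h
  obtain ⟨τ⟩ : Nonempty (ι ≃ κ) := Fintype.card_eq.1 E.card_eq
  have e1 : ((B : Matrix κ κ F) * E.P).submatrix τ id * (E.P' * ((B⁻¹ : GL κ F) : Matrix κ κ F)).submatrix id τ = 1 := by
    rw [← Matrix.submatrix_mul _ _ _ _ _ Function.bijective_id]
    have : (B : Matrix κ κ F) * E.P * (E.P' * ((B⁻¹ : GL κ F) : Matrix κ κ F)) = 1 := by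
      calc _ = (B : Matrix κ κ F) * (E.P * E.P') * ((B⁻¹ : GL κ F) : Matrix κ κ F) := by simp only [Matrix.mul_assoc]
        _ = 1 := by rw [E.PP', Matrix.mul_one, ← Units.val_mul, mul_inv_cancel, Units.val_one]
    rw [this, Matrix.submatrix_one _ τ.injective]
  have e2 : (E.P' * ((B⁻¹ : GL κ F) : Matrix κ κ F)).submatrix id τ * ((B : Matrix κ κ F) * E.P).submatrix τ id = 1 :=
    mul_eq_one_comm.1 e1
  refine ⟨⟨((B : Matrix κ κ F) * E.P).submatrix τ id, (E.P' * ((B⁻¹ : GL κ F) : Matrix κ κ F)).submatrix id τ, e1, e2⟩,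
    fun s hs i j => ?_⟩
  have h1 := hB _ (E.mem_matrixSet hs) (τ i) (τ j)
  show (((B : Matrix κ κ F) * E.P).submatrix τ id * s * (E.P' * ((B⁻¹ : GL κ F) : Matrix κ κ F)).submatrix id τ) i j ∈ F₀
  have e3 : ((B : Matrix κ κ F) * E.P).submatrix τ id * s * (E.P' * ((B⁻¹ : GL κ F) : Matrix κ κ F)).submatrix id τ =
      ((B : Matrix κ κ F) * (E.P * s * E.P') * ((B⁻¹ : GL κ F) : Matrix κ κ F)).submatrix τ τ := by
    have e4 : s = s.submatrix id id := rfl
    conv_lhs => rw [e4]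
    rw [← Matrix.submatrix_mul _ _ _ _ _ Function.bijective_id, ← Matrix.submatrix_mul _ _ _ _ _ Function.bijective_id]
    congr 1
    simp only [Matrix.mul_assoc]
  rw [e3]
  exact h1

theorem core {H R : Subgroup (GL ι F)} (h : Cfsg.Geo.IsResidualCore H R) : Cfsg.Geo.IsResidualCore (E.mp H) (E.mp R) := by
  have e : (R ⧸ (Cfsg.Geo.scalars ι F).subgroupOf R) ≃*
      ((E.mp R) ⧸ (Cfsg.Geo.scalars κ F).subgroupOf (E.mp R)) := by
    refine QuotientGroup.congr _ _ (R.equivMapOfInjective E.gl.toMonoidHom E.gl.injective) ?_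
    ext g
    constructor
    · rintro ⟨x, hx, rfl⟩
      exact E.gl_scalar hx
    · intro hg
      obtain ⟨x, rfl⟩ := (R.equivMapOfInjective E.gl.toMonoidHom E.gl.injective).surjective g
      exact ⟨x, E.gl_scalar_iff.1 hg, rfl⟩
  refine ⟨Subgroup.map_mono h.le, ?_, ?_, ?_, ?_, ?_, E.absIrred h.absIrred, fun F₀ h0 hr => h.no_subfield F₀ h0 (E.realisable hr)⟩
  · rintro _ ⟨a, ha, rfl⟩ _ ⟨x, hx, rfl⟩
    exact ⟨a * x * a⁻¹, h.normal a ha x hx, by simp⟩
  · show ⁅R.map _, R.map _⁆ = R.map _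
    rw [← Subgroup.map_commutator, h.perfect]
  · have := h.simple
    exact e.symm.isSimpleGroup
  · intro hab
    exact h.nonabelian ⟨⟨fun x y => e.injective (by rw [map_mul, map_mul]; exact hab.1.1 _ _)⟩⟩
  · rintro _ ⟨a, ha, rfl⟩ hc
    refine E.gl_scalar (h.centralizer_scalar a ha fun x hx => ?_)
    have h1 := hc (E.gl x) (E.gl_mem.2 hx)
    rw [← E.gl_scalar_iff]
    simpa using h1

theorem unitary {σ : F ≃+* F} {f : (κ → F) → (κ → F) → F} (hf : Cfsg.Geo.IsUnitaryForm σ f) :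
    Cfsg.Geo.IsUnitaryForm σ fun u v => f (E.P *ᵥ u) (E.P *ᵥ v) where
  ne_refl := hf.ne_refl
  involutive := hf.involutive
  add_left x y v := by rw [Matrix.mulVec_add, hf.add_left]
  smul_left c x v := by rw [Matrix.mulVec_smul, hf.smul_left]
  herm v w := hf.herm _ _
  nondegenerate := by
    intro v hv
    have h1 : E.P *ᵥ v ≠ 0 := by
      intro h0
      apply hv
      rw [← E.mulVec_mulVec' v, h0, Matrix.mulVec_zero]
    obtain ⟨⟨x, hx⟩, ⟨y, hy⟩⟩ := hf.nondegenerate _ h1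
    refine ⟨⟨E.P' *ᵥ x, ?_⟩, ⟨E.P' *ᵥ y, ?_⟩⟩
    · show f (E.P *ᵥ (E.P' *ᵥ x)) (E.P *ᵥ v) ≠ 0
      rw [E.mulVec_mulVec]
      exact hx
    · show f (E.P *ᵥ v) (E.P *ᵥ (E.P' *ᵥ y)) ≠ 0
      rw [E.mulVec_mulVec]
      exact hy

theorem fixes {R : Subgroup (GL ι F)} {f : (κ → F) → (κ → F) → F} (hf : Cfsg.Geo.FixesForm (Cfsg.Geo.matrixSet (E.mp R)) f) :
    Cfsg.Geo.FixesForm (Cfsg.Geo.matrixSet R) fun u v => f (E.P *ᵥ u) (E.P *ᵥ v) := by
  rintro _ ⟨g, hg, rfl⟩ u v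
  have h1 := hf _ ⟨E.gl g, E.gl_mem.2 hg, rfl⟩ (E.P *ᵥ u) (E.P *ᵥ v)
  simp only [E.gl_mulVec] at h1
  exact h1

theorem orthRes {H : Subgroup (GL ι F)} (h : Cfsg.Geo.InOrthogonalResidualClass H) :
    Cfsg.Geo.InOrthogonalResidualClass (E.mp H) := by
  obtain ⟨R, hR, hu⟩ := h
  refine ⟨E.mp R, E.core hR, ?_⟩
  rintro ⟨σ, f, hf, hfix⟩
  exact hu ⟨σ, _, E.unitary hf, E.fixes hfix⟩

theorem orthRes_iff {H : Subgroup (GL ι F)} :
    Cfsg.Geo.InOrthogonalResidualClass (E.mp H) ↔ Cfsg.Geo.InOrthogonalResidualClass H :=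
  ⟨fun h => by rw [← E.mp_symm H]; exact E.symm.orthRes h, E.orthRes⟩

end Eqv

end Cfsg.Agent.H473.TR
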