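import Cfsg.Agent.H473.TR.Base
import Cfsg.Agent.GenOrth.Normal
import Cfsg.Agent.H883.Bridge
import Cfsg.Agent.H955.QMinus

/-!
# S3499, TRANSPORT-OM (helper473)

A model `Q = omegaGL Qf / scalars`, `Qf` nondegenerate on `F^ι`:
* `tr_fin` : a model over `Fin n`, `n = |ι|`, type (plus, not plus) unchanged;
* `tr_odd` : `|ι| = 2 k + 1` : `|F|` is odd, and a model over `quadFormOdd k F`;
* `tr_plus`, `tr_minus` : the standard forms in even dimension.
In each case the residual class of `m.hat A` is unchanged.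
-/

set_option autoImplicit false

namespace Cfsg.Agent.H473.TR

open Subgroup Cfsg.Agent.H419.EP Matrix Cfsg Cfsg.Geo
open Cfsg.Agent.LieClassical.OrthCore
open scoped MatrixGroups Matrix

variable {ι κ : Type} [Fintype ι] [DecidableEq ι] [Fintype κ] [DecidableEq κ] {F : Type*} [Field F]

/-- from a linear equivalence -/
noncomputable def ofLin (j : (ι → F) ≃ₗ[F] (κ → F)) : Eqv ι κ F where
  P := LinearMap.toMatrix' (j : (ι → F) →ₗ[F] (κ → F))
  P' := LinearMap.toMatrix' (j.symm : (κ → F) →ₗ[F] (ι → F))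
  PP' := by
    rw [← LinearMap.toMatrix'_comp, LinearEquiv.comp_coe, LinearEquiv.symm_trans_self]
    exact LinearMap.toMatrix'_id
  P'P := by
    rw [← LinearMap.toMatrix'_comp, LinearEquiv.comp_coe, LinearEquiv.self_trans_symm]
    exact LinearMap.toMatrix'_id

theorem ofLin_mulVec (j : (ι → F) ≃ₗ[F] (κ → F)) (v : ι → F) : (ofLin j).P *ᵥ v = j v := by
  show LinearMap.toMatrix' (j : (ι → F) →ₗ[F] (κ → F)) *ᵥ v = j v
  rw [LinearMap.toMatrix'_mulVec]
  rfl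

namespace Eqv

variable (E : Eqv ι κ F)

theorem mp_iso_le {Q : (ι → F) → F} {Q' : (κ → F) → F} {c : F} (h : ∀ v, Q' (E.P *ᵥ v) = c * Q v) :
    E.mp (isometryGroup F Q) ≤ isometryGroup F Q' := by
  rintro _ ⟨g, hg, rfl⟩ u v
  show Q' (((E.gl g : GL κ F) : Matrix κ κ F) *ᵥ u) = Q' u
  rw [← E.mulVec_mulVec u, E.gl_mulVec, h, h]
  congr 1
  exact hg _ 0

theorem mp_iso {Q : (ι → F) → F} {Q' : (κ → F) → F} {c : F} (hc : c ≠ 0) (h : ∀ v, Q' (E.P *ᵥ v) = c * Q v) :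
    E.mp (isometryGroup F Q) = isometryGroup F Q' := by
  refine le_antisymm (E.mp_iso_le h) ?_
  have h1 : E.symm.mp (isometryGroup F Q') ≤ isometryGroup F Q := by
    refine E.symm.mp_iso_le (c := c⁻¹) fun v => ?_
    show Q (E.P' *ᵥ v) = _
    have h2 := h (E.P' *ᵥ v)
    rw [E.mulVec_mulVec] at h2
    rw [h2, inv_mul_cancel_left₀ hc]
  rw [← E.mp_mp_symm (isometryGroup F Q')]
  exact Subgroup.map_mono h1

omit [DecidableEq κ] [Fintype κ] in
theorem omegaGL_eq (Q : (ι → F) → F) : omegaGL Q = ⁅isometryGroup F Q, isometryGroup F Q⁆ := by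
  unfold omegaGL
  rw [Omega, Subgroup.map_subtype_commutator]

theorem mp_omega {Q : (ι → F) → F} {Q' : (κ → F) → F} {c : F} (hc : c ≠ 0) (h : ∀ v, Q' (E.P *ᵥ v) = c * Q v) :
    E.mp (omegaGL Q) = omegaGL Q' := by
  rw [omegaGL_eq, omegaGL_eq, ← E.mp_iso hc h]
  exact Subgroup.map_commutator _ _ _

/-- the transported model -/
theorem exists_model {G : Type*} [Group G] {Q : (ι → F) → F} {Q' : (κ → F) → F} {c : F} (hc : c ≠ 0)
    (h : ∀ v, Q' (E.P *ᵥ v) = c * Q v) (m : Model G (omegaGL Q)) :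
    ∃ m' : Model G (omegaGL Q'), ∀ A : Subgroup G,
      (InOrthogonalResidualClass (m'.hat A) ↔ InOrthogonalResidualClass (m.hat A)) := by
  refine ⟨E.tr (E.mp_omega hc h) m, fun A => ?_⟩
  rw [E.hat_tr]
  exact E.orthRes_iff

end Eqv

/-! ## reindexing -/

section fin

variable {G : Type*} [Group G]

theorem plus_of (E : Eqv ι κ F) {Q : (ι → F) → F} {Q' : (κ → F) → F} {c : F} (h : ∀ v, Q' (E.P *ᵥ v) = c * Q v)
    (hp : IsPlusTypeOn Q ⊤) : IsPlusTypeOn Q' ⊤ := by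
  obtain ⟨U, -, hU0, hd⟩ := hp
  have hb : Function.Bijective (Matrix.toLin' E.P) := by
    refine ⟨fun v w h => ?_, fun w => ⟨E.P' *ᵥ w, ?_⟩⟩
    · rw [Matrix.toLin'_apply, Matrix.toLin'_apply] at h
      rw [← E.mulVec_mulVec' v, h, E.mulVec_mulVec']
    · rw [Matrix.toLin'_apply, E.mulVec_mulVec]
  let j := LinearEquiv.ofBijective _ hb
  refine ⟨U.map (j : (ι → F) →ₗ[F] (κ → F)), le_top, ?_, ?_⟩
  · rintro _ ⟨u, hu, rfl⟩
    have e : ((j : (ι → F) →ₗ[F] (κ → F)) u) = E.P *ᵥ u := Matrix.toLin'_apply _ _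
    rw [e, h, hU0 u hu, mul_zero]
  · rw [LinearEquiv.finrank_map_eq, hd, finrank_top, finrank_top]
    exact j.finrank_eq

theorem nondeg_of (E : Eqv ι κ F) {Q : (ι → F) → F} {Q' : (κ → F) → F} {c : F} (hc : c ≠ 0)
    (h : ∀ v, Q' (E.P *ᵥ v) = c * Q v) (hQ : IsNondegenerateQuadraticForm Q) : IsNondegenerateQuadraticForm Q' := by
  have h' : ∀ v, Q' v = c * Q (E.P' *ᵥ v) := fun v => by rw [← h, E.mulVec_mulVec]
  have hp : ∀ u v, QuadraticMap.polar Q' u v = c * QuadraticMap.polar Q (E.P' *ᵥ u) (E.P' *ᵥ v) := by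
    intro u v
    rw [QuadraticMap.polar, QuadraticMap.polar, h', h', h', Matrix.mulVec_add]
    ring
  refine ⟨fun a v => ?_, ⟨fun x y v => ?_, fun a x v => ?_, fun v x y => ?_, fun a v x => ?_⟩, fun v hv => ?_⟩
  · rw [h', h', Matrix.mulVec_smul, hQ.smul]
    ring
  · rw [hp, hp, hp, Matrix.mulVec_add, hQ.polar_bilinear.add_left]
    ring
  · rw [hp, hp, Matrix.mulVec_smul, hQ.polar_bilinear.smul_left]
    ring
  · rw [hp, hp, hp, Matrix.mulVec_add, hQ.polar_bilinear.add_right]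
    ring
  · rw [hp, hp, Matrix.mulVec_smul, hQ.polar_bilinear.smul_right]
    ring
  · have h1 : E.P' *ᵥ v ≠ 0 := by
      intro h0
      apply hv
      rw [← E.mulVec_mulVec v, h0, Matrix.mulVec_zero]
    obtain ⟨⟨x, hx⟩, ⟨y, hy⟩⟩ := hQ.nondegenerate _ h1
    refine ⟨⟨E.P *ᵥ x, ?_⟩, ⟨E.P *ᵥ y, ?_⟩⟩
    · rw [hp, E.mulVec_mulVec']
      exact mul_ne_zero hc hx
    · rw [hp, E.mulVec_mulVec']
      exact mul_ne_zero hc hy

/-- **over `Fin n`** -/
theorem tr_fin {Qf : (ι → F) → F} (hQ : IsNondegenerateQuadraticForm Qf) (m : Model G (omegaGL Qf)) {n : ℕ}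
    (hn : Fintype.card ι = n) :
    ∃ (Qg : (Fin n → F) → F) (m' : Model G (omegaGL Qg)), IsNondegenerateQuadraticForm Qg ∧
      (IsPlusTypeOn Qg ⊤ ↔ IsPlusTypeOn Qf ⊤) ∧
      ∀ A : Subgroup G, (InOrthogonalResidualClass (m'.hat A) ↔ InOrthogonalResidualClass (m.hat A)) := by
  subst hn
  let E : Eqv ι (Fin (Fintype.card ι)) F := ofLin (LinearEquiv.funCongrLeft F F (Fintype.equivFin ι).symm)
  have h : ∀ v, (fun w => Qf (E.P' *ᵥ w)) (E.P *ᵥ v) = 1 * Qf v := fun v => by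
    show Qf (E.P' *ᵥ (E.P *ᵥ v)) = _
    rw [E.mulVec_mulVec', one_mul]
  have h2 : ∀ w, Qf (E.symm.P *ᵥ w) = 1 * (fun w => Qf (E.P' *ᵥ w)) w := fun w => (one_mul _).symm
  obtain ⟨m', hm'⟩ := E.exists_model (Q' := fun w => Qf (E.P' *ᵥ w)) one_ne_zero h m
  exact ⟨_, m', nondeg_of E one_ne_zero h hQ, ⟨plus_of E.symm h2, plus_of E h⟩, hm'⟩

end fin

/-! ## standard forms -/

section std

variable {G : Type*} [Group G]

/-- transport along a similarity -/
theorem tr_sim {Q' : QuadraticForm F (ι → F)} {q : (κ → F) → F} (hs : GenOrth.Sim Q' q) (m : Model G (omegaGL ⇑Q')) :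
    ∃ m' : Model G (omegaGL q), ∀ A : Subgroup G,
      (InOrthogonalResidualClass (m'.hat A) ↔ InOrthogonalResidualClass (m.hat A)) := by
  obtain ⟨c, hc, j, hj⟩ := hs
  refine (ofLin j.symm).exists_model (inv_ne_zero hc) (fun v => ?_) m
  rw [ofLin_mulVec]
  have h1 := hj (j.symm v)
  rw [j.apply_symm_apply] at h1
  rw [h1, inv_mul_cancel_left₀ hc]

/-- the odd standard form is degenerate in characteristic two -/
theorem two_ne_of_sim {V : Type*} [AddCommGroup V] [Module F V] {Q' : QuadraticForm F V} (hQ : Nondeg Q') {k : ℕ}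
    (h : GenOrth.Sim Q' (Cfsg.quadFormOdd k F)) : (2 : F) ≠ 0 := by
  intro h2
  obtain ⟨c, hc, j, hj⟩ := h
  have h1 : j (Pi.single (.inl ()) 1) = 0 := by
    apply hQ
    intro y
    obtain ⟨x, rfl⟩ := j.surjective y
    rw [QuadraticMap.polar, ← map_add, hj, hj, hj]
    have h3 : Cfsg.quadFormOdd k F (Pi.single (.inl ()) 1 + x) = Cfsg.quadFormOdd k F (Pi.single (.inl ()) 1) +
        Cfsg.quadFormOdd k F x := by
      unfold Cfsg.quadFormOdd
      simp
      linear_combination x (.inl ()) * h2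
    rw [h3]
    ring
  have h5 : (Pi.single (.inl ()) 1 : Unit ⊕ (Fin k ⊕ Fin k) → F) = 0 := (map_eq_zero_iff j j.injective).1 h1
  have h6 := congrFun h5 (.inl ())
  simp at h6

/-- **odd dimension** -/
theorem tr_odd' [Finite F] {Qf : (ι → F) → F} (hQ : IsNondegenerateQuadraticForm Qf) (m : Model G (omegaGL Qf)) {k : ℕ}
    (hn : Fintype.card ι = 2 * k + 1) :
    (2 : F) ≠ 0 ∧ ∃ m' : Model G (omegaGL (quadFormOdd k F)), ∀ A : Subgroup G,
      (InOrthogonalResidualClass (m'.hat A) ↔ InOrthogonalResidualClass (m.hat A)) := by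
  obtain ⟨Q', hQ', hnd⟩ := H883.Bridge.exists_quadraticForm hQ
  subst hQ'
  rcases GenOrth.normal_form (Fintype.card ι) hnd (by rw [Module.finrank_fintype_fun_eq_card]) with ⟨k', hk, hs⟩ | ⟨k', hk, hs⟩ |
    ⟨k', hk, a, b, hab, hs⟩
  · obtain rfl : k' = k := by omega
    exact ⟨two_ne_of_sim hnd hs, tr_sim hs m⟩
  · omega
  · omega

theorem odd_card_of_two_ne [Fintype F] (h2 : (2 : F) ≠ 0) : Odd (Fintype.card F) := by
  rw [← Nat.not_even_iff_odd]
  intro he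
  apply h2
  have h1 : ringChar F = 2 := (FiniteField.even_card_iff_char_two).2 (Nat.even_iff.1 he)
  have h3 : ((2 : ℕ) : F) = 0 := by
    rw [← h1]
    exact ringChar.Nat.cast_ringChar
  exact_mod_cast h3

/-- **odd dimension** -/
theorem tr_odd [Fintype F] {Qf : (ι → F) → F} (hQ : IsNondegenerateQuadraticForm Qf) (m : Model G (omegaGL Qf)) {k : ℕ}
    (hn : Fintype.card ι = 2 * k + 1) :
    Odd (Fintype.card F) ∧ ∃ m' : Model G (omegaGL (quadFormOdd k F)), ∀ A : Subgroup G,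
      (InOrthogonalResidualClass (m'.hat A) ↔ InOrthogonalResidualClass (m.hat A)) := by
  obtain ⟨h2, h3⟩ := tr_odd' hQ m hn
  exact ⟨odd_card_of_two_ne h2, h3⟩

omit [Fintype ι] [DecidableEq ι] in
theorem plusTop_iff {Q : QuadraticForm F (ι → F)} : IsPlusTypeOn (⇑Q) ⊤ ↔ H955.IsPlus Q := by
  constructor
  · rintro ⟨U, -, hU0, hd⟩
    exact ⟨U, fun u hu => hU0 u hu, by rw [hd, finrank_top]⟩
  · rintro ⟨U, hU0, hd⟩
    exact ⟨U, le_top, fun u hu => hU0 u hu, by rw [finrank_top]; exact hd⟩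

/-- **plus type** -/
theorem tr_plus {Qf : (ι → F) → F} (hQ : IsNondegenerateQuadraticForm Qf) (m : Model G (omegaGL Qf)) {k : ℕ}
    (hn : Fintype.card ι = 2 * k) (hp : IsPlusTypeOn Qf ⊤) :
    ∃ m' : Model G (omegaGL (quadFormPlus k F)), ∀ A : Subgroup G,
      (InOrthogonalResidualClass (m'.hat A) ↔ InOrthogonalResidualClass (m.hat A)) := by
  obtain ⟨Q', hQ', hnd⟩ := H883.Bridge.exists_quadraticForm hQ
  subst hQ'
  obtain ⟨e, he⟩ := H955.exists_plus_equiv k Q' hnd (by rw [Module.finrank_fintype_fun_eq_card, hn]) (plusTop_iff.1 hp)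
  refine (ofLin e).exists_model one_ne_zero (fun v => ?_) m
  rw [ofLin_mulVec, one_mul, ← he, ← LieClassical.QuadForms.coe_plusForm]

/-- **minus type** -/
theorem tr_minus [Finite F] {Qf : (ι → F) → F} (hQ : IsNondegenerateQuadraticForm Qf) (m : Model G (omegaGL Qf)) {k : ℕ}
    (hn : Fintype.card ι = 2 * (k + 1)) (hp : ¬ IsPlusTypeOn Qf ⊤) {a b : F}
    (hab : ∀ z₁ z₂ : F, z₁ ^ 2 + a * z₁ * z₂ + b * z₂ ^ 2 = 0 → z₁ = 0 ∧ z₂ = 0) :
    ∃ m' : Model G (omegaGL (quadFormMinus k F a b)), ∀ A : Subgroup G,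
      (InOrthogonalResidualClass (m'.hat A) ↔ InOrthogonalResidualClass (m.hat A)) := by
  obtain ⟨Q', hQ', hnd⟩ := H883.Bridge.exists_quadraticForm hQ
  subst hQ'
  obtain ⟨e, he⟩ := H955.exists_minus_equiv hab k Q' hnd (by rw [Module.finrank_fintype_fun_eq_card, hn])
    (fun h => hp (plusTop_iff.2 h))
  refine (ofLin e).exists_model one_ne_zero (fun v => ?_) m
  rw [ofLin_mulVec, one_mul, ← he, ← LieClassical.QuadForms.coe_minusForm]

/-- **minus type**, the anisotropic pair supplied -/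
theorem tr_minus' [Finite F] {Qf : (ι → F) → F} (hQ : IsNondegenerateQuadraticForm Qf) (m : Model G (omegaGL Qf)) {k : ℕ}
    (hn : Fintype.card ι = 2 * (k + 1)) (hp : ¬ IsPlusTypeOn Qf ⊤) :
    ∃ a b : F, (∀ z₁ z₂ : F, z₁ ^ 2 + a * z₁ * z₂ + b * z₂ ^ 2 = 0 → z₁ = 0 ∧ z₂ = 0) ∧
      ∃ m' : Model G (omegaGL (quadFormMinus k F a b)), ∀ A : Subgroup G,
      (InOrthogonalResidualClass (m'.hat A) ↔ InOrthogonalResidualClass (m.hat A)) := by
  obtain ⟨a, b, hab⟩ := H955.exists_aniso_coeff F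
  exact ⟨a, b, hab, tr_minus hQ m hn hp hab⟩

end std

end Cfsg.Agent.H473.TR
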